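import Cfsg.Agent.Mrg.Omega.Assembly

/-!
# S1731 from K-properness, S1765 and the table of `Omega/Quasithin` (helper56)
-/

set_option autoImplicit false

namespace Cfsg.Agent.StrQ

open Cfsg Cfsg.Agent.Omega.Assembly Cfsg.Agent.Omega.Quasithin

universe u

/-- **S1731** for a K-proper group, from S1765 and the table. -/
theorem main (hO : OddLit.{u}) (R : Rows.{u}) {G : Type u} [Group G] [Finite G] [IsSimpleGroup G]
    (hG : ¬ IsMulCommutative G) (hK : IsKProper G) (hq : ∀ p : ℕ, p.Prime → p ≠ 2 → Cfsg.PRankLE p 2 G)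
    (hE : ¬ Cfsg.IsOfEvenCharacteristic G) :
    Nonempty (G ≃* alternatingGroup (Fin 7)) ∨ Cfsg.Spor.IsoJ1 G ∨
      ∃ p : ℕ, p.Prime ∧ 5 ≤ p ∧ ∃ (F : Type) (_ : Field F) (_ : Fintype F),
        ((Fintype.card F = p ∨ Fintype.card F = p ^ 2) ∧ Nonempty (G ≃* Matrix.ProjectiveSpecialLinearGroup (Fin 2) F)) ∨
        (Fintype.card F = p ∧ Nonempty (G ≃* Matrix.ProjectiveSpecialLinearGroup (Fin 3) F)) ∨
        (Fintype.card F = p ^ 2 ∧ Nonempty (G ≃* Cfsg.PSU 3 F p)) := by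
  have h2 : ¬ IsCharacteristicTwoType G := fun h => hE (Cfsg.Agent.Omega.Quasithin.evenChar_of_charTwoType h)
  have h3 : PRankLE 3 2 G := hq 3 Nat.prime_three (by norm_num)
  rcases hO G hG hK h2 with
      ⟨⟨p, hp, hp2, h⟩, hx2, hx3, hxu⟩ | ⟨n, hn, ⟨e⟩⟩ | h | h | h | h | h | h | h |
      h | h | h | h | h | h | h | h | h | h | h
  · right; right
    obtain ⟨F, iF, iFt, h⟩ := R.lie hp hp2 h (hq p hp hp2)
    by_cases hp3 : p = 3
    · exfalso
      subst hp3
      rcases h with ⟨h, e⟩ | ⟨h, e⟩ | ⟨h, e⟩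
      · apply hx2
        refine ⟨F, iF, iFt, ?_, e⟩
        rcases h with h | h
        · left
          rw [h]
          exact ⟨Nat.prime_three, Or.inl ⟨2, by norm_num⟩⟩
        · right
          rw [h]
          norm_num
      · exact hx3 ⟨F, iF, iFt, h, Or.inl e⟩
      · exact hxu ⟨F, iF, iFt, h, Or.inl e⟩
    · refine ⟨p, hp, ?_, F, iF, iFt, h⟩
      have h4 : p ≠ 4 := by rintro rfl; exact absurd hp (by decide)
      have := hp.two_le
      omega
  · rcases hn with rfl | hn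
    · exact Or.inl ⟨e⟩
    · exact absurd (Cfsg.Agent.Omega.Quasithin.prankLE_congr e h3) (R.alt n hn)
  · exact absurd (R.m12 G h) hE
  · exact Or.inr (Or.inl h)
  · exact absurd (R.j2 G h) hE
  · exact absurd h3 (R.mcl G h)
  · exact absurd h3 (R.ly G h)
  · exact absurd (R.hs G h) hE
  · exact absurd (R.he G h) hE
  · exact absurd h3 (R.on G h)
  · exact absurd h3 (R.suz G h)
  · exact absurd (R.ru G h) hE
  · exact absurd h3 (R.co3 G h)
  · exact absurd h3 (R.co1 G h)
  · exact absurd h3 (R.fi22 G h)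
  · exact absurd h3 (R.fi23 G h)
  · exact absurd h3 (R.fi24 G h)
  · exact absurd h3 (R.hn G h)
  · exact absurd h3 (R.b G h)
  · exact absurd h3 (R.m G h)

end Cfsg.Agent.StrQ
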